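import Mathlib

/-! Semisimple endomorphisms with the same characteristic polynomial are conjugate. -/

set_option autoImplicit false

namespace CfsgLib.Semisimple.CharpolyConj
open Polynomial Module

universe u v w
variable {K : Type u} [Field K]

/-- Multiplication by `X` as a `K`-linear map. -/
noncomputable def xEnd (K : Type u) [Field K] (M : Type v) [AddCommGroup M] [Module K M] [Module K[X] M]
    [IsScalarTower K K[X] M] : Module.End K M := Algebra.lsmul K K M (X : K[X])

theorem aeval_xEnd {M : Type v} [AddCommGroup M] [Module K M] [Module K[X] M] [IsScalarTower K K[X] M]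
    (p : K[X]) (m : M) : aeval (xEnd K M) p m = p • m := by
  rw [xEnd, aeval_algHom_apply, aeval_X_left_apply]
  rfl

theorem charpoly_congr {M : Type v} [AddCommGroup M] [Module K M] [Module K[X] M] [IsScalarTower K K[X] M]
    [Module.Finite K M] {N : Type w} [AddCommGroup N] [Module K N] [Module K[X] N] [IsScalarTower K K[X] N]
    [Module.Finite K N] (e : M ≃ₗ[K[X]] N) : (xEnd K M).charpoly = (xEnd K N).charpoly := by
  rw [← (e.restrictScalars K).charpoly_conj (xEnd K M)]
  congr 1
  refine LinearMap.ext fun x => ?_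
  show e ((X : K[X]) • e.symm x) = (X : K[X]) • x
  rw [map_smul, e.apply_symm_apply]

theorem exists_smul_eq_zero {M : Type v} [AddCommGroup M] [Module K M] [Module K[X] M] [IsScalarTower K K[X] M]
    [Module.Finite K M] {π : K[X]} (hπ : Irreducible π) (h : π ∣ (xEnd K M).charpoly) :
    ∃ m : M, m ≠ 0 ∧ π • m = 0 := by
  classical
  haveI := Fact.mk hπ
  let b := Module.Free.chooseBasis K M
  let A := LinearMap.toMatrix b b (xEnd K M)
  let lam : AdjoinRoot π := AdjoinRoot.root π
  let ι := algebraMap K (AdjoinRoot π)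
  let AL := A.map ι
  have hroot : AL.charpoly.eval lam = 0 := by
    rw [Matrix.charpoly_map, LinearMap.charpoly_toMatrix]
    obtain ⟨c, hc⟩ := h
    rw [hc, Polynomial.map_mul, eval_mul, eval_map]
    show π.eval₂ (AdjoinRoot.of π) (AdjoinRoot.root π) * _ = 0
    rw [AdjoinRoot.eval₂_root, zero_mul]
  rw [Matrix.eval_charpoly] at hroot
  have hfac : (X - C lam) ∣ π.map ι := by
    rw [dvd_iff_isRoot, IsRoot, eval_map]
    exact AdjoinRoot.eval₂_root π
  obtain ⟨c, hc⟩ := hfac
  have h1 : (aeval AL (π.map ι)).det = 0 := by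
    rw [hc, map_mul, Matrix.det_mul, map_sub, aeval_X, aeval_C]
    rw [show AL - algebraMap _ _ lam = -(Matrix.scalar _ lam - AL) from (neg_sub _ _).symm, Matrix.det_neg, hroot]
    simp
  have h2 : aeval AL (π.map ι) = (aeval A π).map ι := by
    rw [aeval_map_algebraMap]
    exact aeval_algHom_apply (Algebra.ofId K (AdjoinRoot π)).mapMatrix A π
  have h3 : LinearMap.det (aeval (xEnd K M) π) = 0 := by
    rw [← LinearMap.det_toMatrix b]
    have h4 : LinearMap.toMatrix b b (aeval (xEnd K M) π) = aeval A π :=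
      (aeval_algHom_apply (LinearMap.toMatrixAlgEquiv b).toAlgHom (xEnd K M) π).symm
    rw [h4]
    apply ι.injective
    rw [RingHom.map_det, map_zero]
    rw [RingHom.mapMatrix_apply, ← h2]
    exact h1
  obtain ⟨m, hm, hm0⟩ := Submodule.exists_mem_ne_zero_of_ne_bot (bot_lt_iff_ne_bot.1 (LinearMap.bot_lt_ker_of_det_eq_zero h3))
  exact ⟨m, hm0, by rw [← aeval_xEnd]; exact hm⟩

theorem exists_equiv : ∀ (d : ℕ) (M : Type v) (N : Type w) [AddCommGroup M] [Module K M] [Module K[X] M]
    [IsScalarTower K K[X] M] [Module.Finite K M] [IsSemisimpleModule K[X] M]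
    [AddCommGroup N] [Module K N] [Module K[X] N] [IsScalarTower K K[X] N] [Module.Finite K N]
    [IsSemisimpleModule K[X] N], finrank K M = d → (xEnd K M).charpoly = (xEnd K N).charpoly →
    Nonempty (M ≃ₗ[K[X]] N) := by
  intro d
  induction d using Nat.strong_induction_on with
  | _ d ih =>
    intro M N _ _ _ _ _ _ _ _ _ _ _ _ hd hχ
    rcases Nat.eq_zero_or_pos d with h0 | hpos
    · have hN : finrank K N = 0 := by rw [← LinearMap.charpoly_natDegree (xEnd K N), ← hχ, LinearMap.charpoly_natDegree]; omega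
      haveI : Subsingleton M := (finrank_zero_iff (R := K)).1 (by omega)
      haveI : Subsingleton N := (finrank_zero_iff (R := K)).1 hN
      exact ⟨LinearEquiv.ofSubsingleton _ _⟩
    have hnu : ¬ IsUnit (xEnd K M).charpoly := fun hu => by
      have h := natDegree_eq_zero_of_isUnit hu
      rw [LinearMap.charpoly_natDegree] at h
      omega
    obtain ⟨π, hπ, hdvd⟩ := WfDvdMonoid.exists_irreducible_factor hnu (LinearMap.charpoly_monic _).ne_zero
    obtain ⟨m, hm, hm'⟩ := exists_smul_eq_zero hπ hdvd
    obtain ⟨n, hn, hn'⟩ := exists_smul_eq_zero hπ (hχ ▸ hdvd)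
    have key : ∀ (P : Type v) [AddCommGroup P] [Module K[X] P] (x : P), x ≠ 0 → π • x = 0 →
        LinearMap.ker (LinearMap.toSpanSingleton K[X] P x) = Ideal.span {π} := by
      intro P _ _ x hx hx'
      have hle : Ideal.span {π} ≤ LinearMap.ker (LinearMap.toSpanSingleton K[X] P x) := by
        rw [Ideal.span_le]
        intro y hy
        rw [Set.mem_singleton_iff] at hy
        simp [hy, hx']
      refine ((PrincipalIdealRing.isMaximal_of_irreducible hπ).eq_of_le ?_ hle).symm
      intro h
      have h1 : (1 : K[X]) ∈ LinearMap.ker (LinearMap.toSpanSingleton K[X] P x) := h ▸ Submodule.mem_top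
      simp at h1
      exact hx h1
    have key' : ∀ (P : Type w) [AddCommGroup P] [Module K[X] P] (x : P), x ≠ 0 → π • x = 0 →
        LinearMap.ker (LinearMap.toSpanSingleton K[X] P x) = Ideal.span {π} := by
      intro P _ _ x hx hx'
      have hle : Ideal.span {π} ≤ LinearMap.ker (LinearMap.toSpanSingleton K[X] P x) := by
        rw [Ideal.span_le]
        intro y hy
        rw [Set.mem_singleton_iff] at hy
        simp [hy, hx']
      refine ((PrincipalIdealRing.isMaximal_of_irreducible hπ).eq_of_le ?_ hle).symm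
      intro h
      have h1 : (1 : K[X]) ∈ LinearMap.ker (LinearMap.toSpanSingleton K[X] P x) := h ▸ Submodule.mem_top
      simp at h1
      exact hx h1
    let t₁ := LinearMap.toSpanSingleton K[X] M m
    let t₂ := LinearMap.toSpanSingleton K[X] N n
    let e₀ : LinearMap.range t₁ ≃ₗ[K[X]] LinearMap.range t₂ :=
      t₁.quotKerEquivRange.symm ≪≫ₗ Submodule.quotEquivOfEq _ _ ((key M m hm hm').trans (key' N n hn hn').symm)
        ≪≫ₗ t₂.quotKerEquivRange
    obtain ⟨C₁, hC₁⟩ := exists_isCompl (LinearMap.range t₁)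
    obtain ⟨C₂, hC₂⟩ := exists_isCompl (LinearMap.range t₂)
    haveI : Module.Finite K (LinearMap.range t₁) := Module.Finite.of_injective ((LinearMap.range t₁).subtype.restrictScalars K) Subtype.val_injective
    haveI : Module.Finite K (LinearMap.range t₂) := Module.Finite.of_injective ((LinearMap.range t₂).subtype.restrictScalars K) Subtype.val_injective
    haveI : Module.Finite K C₁ := Module.Finite.of_injective (C₁.subtype.restrictScalars K) Subtype.val_injective
    haveI : Module.Finite K C₂ := Module.Finite.of_injective (C₂.subtype.restrictScalars K) Subtype.val_injective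
    let P₁ := Submodule.prodEquivOfIsCompl _ _ hC₁
    let P₂ := Submodule.prodEquivOfIsCompl _ _ hC₂
    have hp₁ : (xEnd K M).charpoly = (xEnd K (LinearMap.range t₁)).charpoly * (xEnd K C₁).charpoly := by
      rw [← charpoly_congr (K := K) P₁, ← LinearMap.charpoly_prodMap]
      rfl
    have hp₂ : (xEnd K N).charpoly = (xEnd K (LinearMap.range t₂)).charpoly * (xEnd K C₂).charpoly := by
      rw [← charpoly_congr (K := K) P₂, ← LinearMap.charpoly_prodMap]
      rfl
    rw [hp₁, hp₂, ← charpoly_congr (K := K) e₀] at hχ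
    have hlt : finrank K C₁ < d := by
      rw [← hd, ← (P₁.restrictScalars K).finrank_eq, finrank_prod]
      haveI : Nontrivial (LinearMap.range t₁) :=
        ⟨⟨⟨m, 1, by simp [t₁]⟩, 0, fun h => hm (congrArg Subtype.val h)⟩⟩
      have : 0 < finrank K (LinearMap.range t₁) := finrank_pos
      exact Nat.lt_add_of_pos_left this
    obtain ⟨e₁⟩ := ih _ hlt C₁ C₂ rfl (mul_left_cancel₀ (LinearMap.charpoly_monic _).ne_zero hχ)
    exact ⟨P₁.symm ≪≫ₗ e₀.prodCongr e₁ ≪≫ₗ P₂⟩

/-- Semisimple endomorphisms with equal characteristic polynomials are conjugate. -/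
theorem exists_conj {V : Type v} [AddCommGroup V] [Module K V] [FiniteDimensional K V] (a b : Module.End K V)
    (ha : a.IsSemisimple) (hb : b.IsSemisimple) (hc : a.charpoly = b.charpoly) :
    ∃ e : V ≃ₗ[K] V, ∀ x, e (a x) = b (e x) := by
  haveI : IsSemisimpleModule K[X] (AEval' a) := ha
  haveI : IsSemisimpleModule K[X] (AEval' b) := hb
  haveI : Module.Finite K (AEval' a) := Module.Finite.equiv (AEval'.of a)
  haveI : Module.Finite K (AEval' b) := Module.Finite.equiv (AEval'.of b)
  have hx : ∀ c : Module.End K V, [Module.Finite K (AEval' c)] → (xEnd K (AEval' c)).charpoly = c.charpoly := by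
    intro c _
    rw [← (AEval'.of c).charpoly_conj c]
    congr 1
    refine LinearMap.ext fun y => ?_
    obtain ⟨x, rfl⟩ := (AEval'.of c).surjective y
    show (X : K[X]) • AEval'.of c x = AEval'.of c (c ((AEval'.of c).symm (AEval'.of c x)))
    rw [LinearEquiv.symm_apply_apply]
    exact AEval'.X_smul_of c x
  obtain ⟨e⟩ := exists_equiv (K := K) _ (AEval' a) (AEval' b) rfl (by rw [hx, hx, hc])
  refine ⟨AEval'.of a ≪≫ₗ e.restrictScalars K ≪≫ₗ (AEval'.of b).symm, fun x => ?_⟩
  show (AEval'.of b).symm (e (AEval'.of a (a x))) = b ((AEval'.of b).symm (e (AEval'.of a x)))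
  rw [← AEval'.X_smul_of a x, map_smul]
  obtain ⟨y, hy⟩ := (AEval'.of b).surjective (e (AEval'.of a x))
  rw [← hy, LinearEquiv.symm_apply_apply, AEval'.X_smul_of, LinearEquiv.symm_apply_apply]

end CfsgLib.Semisimple.CharpolyConj
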